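import Cfsg.Agent.FGS75.TICent.Zass
import Cfsg.Agent.CharDeep.ZassAbelian
import Cfsg.Agent.Linear.PermIso
import Cfsg.Agent.S0338
import Cfsg.Agent.S0346
import Cfsg.Agent.S1147
import Cfsg.Agent.S1230

/-!
In the non-solvable case the Sylow 2-subgroup is elementary abelian and the group is `PSL₂(2ⁿ)`.
-/

set_option autoImplicit false
set_option maxHeartbeats 1000000

namespace Cfsg.Agent.FGS75.TICent

variable {G : Type*} [Group G] [Finite G] {S : Sylow 2 G} {z : G} (h : Dat S z)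
include h

theorem Dat.isSimple : IsSimpleGroup G := by
  classical
  letI : Fintype (G ⧸ nS S) := Fintype.ofFinite _
  refine Cfsg.Agent.S0338.result h.isZassenhaus ?_
  rw [← Nat.card_eq_fintype_card, h.card_points]
  exact h.even_cz.add_one

theorem Dat.cz_isPGroup : IsPGroup 2 (cz z) := by
  classical
  haveI := h.isSimple
  letI : Fintype (G ⧸ nS S) := Fintype.ofFinite _
  have h1 := Cfsg.Agent.S0346.result h.isZassenhaus
  rw [← Nat.card_eq_fintype_card, h.card_points, Nat.add_sub_cancel] at h1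
  obtain ⟨p, k, hp, hk, hpk⟩ := (isPrimePow_nat_iff _).mp h1
  have h2 : 2 ∣ p ^ k := hpk ▸ even_iff_two_dvd.mp h.even_cz
  obtain rfl : 2 = p := (Nat.prime_dvd_prime_iff_eq Nat.prime_two hp).mp
    (Nat.prime_two.dvd_of_dvd_pow h2)
  exact IsPGroup.of_card hpk.symm

theorem Dat.cz_eq_sylow : cz z = (S : Subgroup G) :=
  S.is_maximal' h.cz_isPGroup h.le_cz

theorem Dat.stab_one : MulAction.stabilizer G (QuotientGroup.mk 1 : G ⧸ nS S) = nS S := by
  ext x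
  rw [MulAction.mem_stabilizer_iff]
  exact fix_one

theorem Dat.isKernel : PermB.IsKernel (cz z) (QuotientGroup.mk 1 : G ⧸ nS S) :=
  ⟨fun _ hc => MulAction.mem_stabilizer_iff.mpr (fix_one.mpr (h.cz_le_nS hc)),
    fun _ hm _ hc => mem_cent.mpr (h.normalizes (h.stab_one.le hm) (mem_cent.mp hc)),
    fun _ _ hc hd => h.regular hc hd⟩

theorem Dat.stab_two {u : G} :
    MulAction.stabilizer G (QuotientGroup.mk 1 : G ⧸ nS S) ⊓
      MulAction.stabilizer G (QuotientGroup.mk u : G ⧸ nS S) = dd S u := by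
  ext x
  rw [Subgroup.mem_inf, MulAction.mem_stabilizer_iff, MulAction.mem_stabilizer_iff, fix_one, fix_iff,
    mem_dd]

theorem Dat.cz_comm_om {ω : G} (hω : ω ∈ h.om) {c : G} (hc : c ∈ cz z) : ω * c = c * ω := by
  by_cases h1 : ω = 1
  · rw [h1, one_mul, mul_one]
  have h2 := h.cz_eq hω.2 h1 hω.1
  exact (mem_cent.mp (h2.symm ▸ hc : c ∈ cz ω)).symm

theorem Dat.conj_om {m : G} (hm : m ∈ nS S) {ω : G} (hω : ω ∈ h.om) : m * ω * m⁻¹ ∈ h.om :=
  ⟨(Subgroup.mem_normalizer_iff.mp hm ω).mp hω.1, by rw [conj_mul, hω.2, mul_one, mul_inv_cancel]⟩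

theorem Dat.conj_mem_cent {m : G} (hm : m ∈ nS S) {y : G} (hy : y ∈ cz z) :
    m * y * m⁻¹ ∈ cz y := by
  have hz : m * z * m⁻¹ ∈ h.om := h.conj_om hm ⟨h.zS, h.z2⟩
  have h1 := h.cz_comm_om hz hy
  have hn := norm_of_mem h.tic (x := y) (a := z) (g := m) (mem_cent.mp hy).symm h1 h.z1
  exact (Subgroup.mem_normalizer_iff.mp hn y).mp (mem_cent.mpr rfl)

theorem Dat.not_comm_of_not_om {u : G} (huM : u ∉ nS S) {y : G} (hy : y ∈ cz z) (hyom : y ∉ h.om)
    {x : G} (hx : x ∈ dd S u) (hxy : x * y * x⁻¹ * y⁻¹ ∈ h.om) : x = 1 := by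
  classical
  by_contra hx1
  have hxM : x ∈ nS S := hx.1
  let f : h.om → h.om := fun ω => ⟨(ω : G) * (x * (ω : G) * x⁻¹)⁻¹,
    mul_mem ω.2 (inv_mem (h.conj_om hxM ω.2))⟩
  have hf : Function.Injective f := by
    intro a b e
    have e' : (a : G) * (x * (a : G) * x⁻¹)⁻¹ = (b : G) * (x * (b : G) * x⁻¹)⁻¹ :=
      congrArg (fun w : h.om => (w : G)) e
    have hc : (b : G)⁻¹ * a ∈ h.om := mul_mem (inv_mem b.2) a.2
    have hfix : x * ((b : G)⁻¹ * a) * x⁻¹ = (b : G)⁻¹ * a := by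
      calc x * ((b : G)⁻¹ * a) * x⁻¹ = (x * (b : G) * x⁻¹)⁻¹ * (x * (a : G) * x⁻¹) := by group
        _ = (b : G)⁻¹ * ((b : G) * (x * (b : G) * x⁻¹)⁻¹) * (x * (a : G) * x⁻¹) := by group
        _ = (b : G)⁻¹ * ((a : G) * (x * (a : G) * x⁻¹)⁻¹) * (x * (a : G) * x⁻¹) := by rw [e']
        _ = (b : G)⁻¹ * a := by group
    have hcx : x * ((b : G)⁻¹ * a) = ((b : G)⁻¹ * a) * x := mul_inv_eq_iff_eq_mul.mp hfix
    by_contra hne
    have hc1 : (b : G)⁻¹ * a ≠ 1 := fun e1 => hne (Subtype.ext (inv_mul_eq_one.mp e1).symm)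
    have h2 : x ∈ cz ((b : G)⁻¹ * a) := mem_cent.mpr hcx
    rw [h.cz_eq hc.2 hc1 hc.1] at h2
    exact hx1 (h.eq_one_of_dd_cz huM hx (mem_cent.mp h2))
  obtain ⟨ω, hω⟩ := (Finite.injective_iff_surjective.mp hf) ⟨_, hxy⟩
  have hω' : (ω : G) * (x * (ω : G) * x⁻¹)⁻¹ = x * y * x⁻¹ * y⁻¹ :=
    congrArg (fun w : h.om => (w : G)) hω
  have hcomm : x * (y * (ω : G)) = y * (ω : G) * x := by
    refine mul_inv_eq_iff_eq_mul.mp ?_
    calc x * (y * (ω : G)) * x⁻¹ = (x * y * x⁻¹ * y⁻¹) * y * (x * (ω : G) * x⁻¹) := by group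
      _ = y * (x * y * x⁻¹ * y⁻¹) * (x * (ω : G) * x⁻¹) := by rw [h.cz_comm_om hxy hy]
      _ = y * ((ω : G) * (x * (ω : G) * x⁻¹)⁻¹) * (x * (ω : G) * x⁻¹) := by rw [hω']
      _ = y * (ω : G) := by group
  have hy'z : y * (ω : G) ∈ cz z :=
    mul_mem hy (mem_cent.mpr (h.zc _ ω.2.1))
  have hy'1 : y * (ω : G) ≠ 1 := fun e => hyom (by
    rw [eq_inv_of_mul_eq_one_left e]; exact inv_mem ω.2)
  exact hx1 (h.eq_one_of_dd_cz huM hx
    (mem_cent.mp (h.cent_le (mem_cent.mp hy'z) hy'1 (mem_cent.mpr hcomm))))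

theorem Dat.cz_of_not_om {u : G} (huM : u ∉ nS S)
    (hh : Nat.card (cz z) = (ni S + 1) * (ni S + 1)) {y : G} (hy : y ∈ cz z) (hyom : y ∉ h.om) :
    cz y = cz z := by
  classical
  have hsub : ∀ d ∈ dd S u, ∀ ω ∈ h.om, d * y * d⁻¹ * ω ∈ cz y := fun d hd ω hω =>
    mul_mem (h.conj_mem_cent hd.1 hy) (mem_cent.mpr (h.cz_comm_om hω hy))
  let f : (dd S u × h.om) ⊕ h.om → cz y := Sum.elim
    (fun p => ⟨(p.1 : G) * y * (p.1 : G)⁻¹ * p.2, hsub _ p.1.2 _ p.2.2⟩)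
    (fun ω => ⟨ω, mem_cent.mpr (h.cz_comm_om ω.2 hy)⟩)
  have hout : ∀ (d : dd S u) (ω ω' : h.om), (d : G) * y * (d : G)⁻¹ * ω ≠ ω' := by
    intro d ω ω' e
    apply hyom
    have h1 : (d : G) * y * (d : G)⁻¹ ∈ h.om := by
      rw [eq_mul_inv_of_mul_eq e]; exact mul_mem ω'.2 (inv_mem ω.2)
    have := h.conj_om (inv_mem d.2.1) h1
    rwa [show (d : G)⁻¹ * ((d : G) * y * (d : G)⁻¹) * (d : G)⁻¹⁻¹ = y by group] at this
  have hinj : Function.Injective f := by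
    rintro (⟨d, ω⟩ | ω) (⟨e, ω'⟩ | ω') hfe
    · have e' : (d : G) * y * (d : G)⁻¹ * ω = (e : G) * y * (e : G)⁻¹ * ω' :=
        congrArg (fun w : cz y => (w : G)) hfe
      have hmem : (e : G)⁻¹ * d ∈ dd S u := mul_mem (inv_mem e.2) d.2
      have hcomm : ((e : G)⁻¹ * d) * y * ((e : G)⁻¹ * d)⁻¹ * y⁻¹ ∈ h.om := by
        have hc : (e : G)⁻¹ * ((ω' : G) * (ω : G)⁻¹) * (e : G)⁻¹⁻¹ ∈ h.om :=
          h.conj_om (inv_mem e.2.1) (mul_mem ω'.2 (inv_mem ω.2))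
        rw [show ((e : G)⁻¹ * d) * y * ((e : G)⁻¹ * d)⁻¹ * y⁻¹ =
          (e : G)⁻¹ * ((d : G) * y * (d : G)⁻¹) * (e : G) * y⁻¹ by group, eq_mul_inv_of_mul_eq e']
        rw [show (e : G)⁻¹ * ((e : G) * y * (e : G)⁻¹ * (ω' : G) * (ω : G)⁻¹) * (e : G) * y⁻¹ =
          y * ((e : G)⁻¹ * ((ω' : G) * (ω : G)⁻¹) * (e : G)⁻¹⁻¹) * y⁻¹ by group,
          ← h.cz_comm_om hc hy, mul_inv_cancel_right]
        exact hc
      have hde : d = e := (Subtype.ext (inv_mul_eq_one.mp (h.not_comm_of_not_om huM hy hyom hmem hcomm))).symm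
      subst hde
      rw [Subtype.ext (mul_left_cancel e')]
    · exact absurd (congrArg (fun w : cz y => (w : G)) hfe) (hout d ω ω')
    · exact absurd (congrArg (fun w : cz y => (w : G)) hfe).symm (hout e ω' ω)
    · exact congrArg Sum.inr (Subtype.ext (congrArg (fun w : cz y => (w : G)) hfe :))
  have h1 := Nat.card_le_card_of_injective f hinj
  rw [Nat.card_sum, Nat.card_prod, h.card_dd huM, h.card_om] at h1
  have hy1 : y ≠ 1 := fun e => hyom (e ▸ one_mem _)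
  exact Subgroup.eq_of_le_of_card_ge (h.cent_le (mem_cent.mp hy) hy1) (by
    rw [hh]; linarith)

/-- The kernel is abelian. -/
theorem Dat.cz_comm : ∀ a ∈ cz z, ∀ b ∈ cz z, a * b = b * a := by
  classical
  haveI := h.isSimple
  by_contra hcon
  push Not at hcon
  obtain ⟨a, ha, b, hb, hab⟩ := hcon
  obtain ⟨u, hu, huM⟩ := h.exists_outer
  have hne : (QuotientGroup.mk 1 : G ⧸ nS S) ≠ QuotientGroup.mk u := fun e =>
    huM (mk_one_iff.mp e.symm)
  obtain ⟨n, -, -, hcard, -, hdd, -⟩ := Cfsg.Agent.S1147.result h.isZassenhaus hne (cz z)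
    h.isKernel.le h.isKernel.conj h.isKernel.reg h.cz_isPGroup ⟨a, ha, b, hb, hab⟩
  rw [h.card_points] at hcard
  rw [h.stab_two, h.card_dd huM] at hdd
  have hq : 1 ≤ 2 ^ n := Nat.one_le_two_pow
  have hh : Nat.card (cz z) = (ni S + 1) * (ni S + 1) := by
    rw [show ni S + 1 = 2 ^ n by omega, ← pow_add, ← two_mul]; omega
  by_cases haom : a ∈ h.om
  · exact hab (h.cz_comm_om haom hb)
  · have h2 := h.cz_of_not_om huM hh ha haom
    exact hab (mem_cent.mp (h2.symm ▸ hb : b ∈ cz a)).symm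

theorem Dat.om_eq_cz : h.om = cz z := by
  classical
  obtain ⟨u, hu, huM⟩ := h.exists_outer
  have hne : (QuotientGroup.mk 1 : G ⧸ nS S) ≠ QuotientGroup.mk u := fun e =>
    huM (mk_one_iff.mp e.symm)
  have hz := PermB.zData_of_isZassenhausGroup h.isZassenhaus
  have hH2 : Nat.card (PermB.ZData.H2 (G := G) (QuotientGroup.mk 1 : G ⧸ nS S) (QuotientGroup.mk u)) =
      ni S := by
    rw [← h.card_dd huM, ← h.stab_two]
  have h1 := CharDeep.ZA.kernel_small h.isZassenhaus h.isKernel hne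
    ⟨⟨fun a b => Subtype.ext (h.cz_comm a a.2 b b.2)⟩⟩
  obtain ⟨k, hk⟩ := CharDeep.ZA.card_H2_dvd hz h.isKernel hne
  rw [hH2, h.card_points] at h1 hk
  obtain ⟨c, hc⟩ := h.even_cz
  have hpos : 0 < Nat.card (cz z) := Nat.card_pos
  have h3 := h.ni_facts.2
  have hk1 : k = 1 := by
    rcases k with _ | _ | k
    · omega
    · rfl
    · exfalso
      have hle : ni S * (k + 1 + 1) ≤ ni S * 2 := by omega
      have hk0 : k = 0 := by
        have := Nat.le_of_mul_le_mul_left hle (by omega)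
        omega
      subst hk0
      omega
  subst hk1
  refine Subgroup.eq_of_le_of_card_ge (fun s hs => h.le_cz hs.1) ?_
  rw [h.card_om]
  omega

theorem Dat.psl2 : ∃ n : ℕ, 2 ≤ n ∧
    Nonempty (G ≃* Matrix.ProjectiveSpecialLinearGroup (Fin 2) (GaloisField 2 n)) := by
  classical
  haveI : Fact (Nat.Prime 2) := ⟨Nat.prime_two⟩
  have hS : (S : Subgroup G) = h.om := h.cz_eq_sylow.symm.trans h.om_eq_cz.symm
  have hcardS : Nat.card (S : Subgroup G) = ni S + 1 := by rw [hS, h.card_om]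
  have h3 := h.ni_facts.2
  have hnc : ¬ IsCyclic (S : Subgroup G) := by
    intro hc
    obtain ⟨⟨g, hg⟩, hgen⟩ := hc.exists_ofOrder_eq_natCard
    rw [Subgroup.orderOf_mk, hcardS] at hgen
    have hg2 : g ∈ h.om := hS ▸ hg
    have : orderOf g ≤ 2 := orderOf_le_of_pow_eq_one (by norm_num) (by rw [pow_two]; exact hg2.2)
    omega
  have hnn : ¬ (S : Subgroup G).Normal := fun hn =>
    h.ne_top (Subgroup.normalizer_eq_top_iff.mpr hn)
  obtain ⟨F, iF, iFt, hF, ⟨e⟩⟩ := Cfsg.Agent.S1230.result S hnc hnn (fun t ht => by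
    obtain ⟨g, hg⟩ := h.exists_conj_z ht
    have hmem : ∀ c ∈ Subgroup.centralizer ({t} : Set G), g⁻¹ * c * g ∈ h.om := by
      intro c hc
      rw [h.om_eq_cz]
      refine mem_cent.mpr ?_
      have h1 := conj_comm g⁻¹ (show c * (g * z * g⁻¹) = (g * z * g⁻¹) * c by
        rw [hg]; exact mem_cent.mp hc)
      rwa [show g⁻¹ * c * g⁻¹⁻¹ = g⁻¹ * c * g by group,
        show g⁻¹ * (g * z * g⁻¹) * g⁻¹⁻¹ = z by group] at h1
    refine ⟨⟨⟨fun a b => Subtype.ext ?_⟩⟩, fun c hc => ?_⟩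
    · have h1 := h.cz_comm _ (h.om_eq_cz ▸ hmem a a.2) _ (h.om_eq_cz ▸ hmem b b.2)
      have h2 := conj_comm g h1
      rwa [show g * (g⁻¹ * (a : G) * g) * g⁻¹ = a by group,
        show g * (g⁻¹ * (b : G) * g) * g⁻¹ = b by group] at h2
    · calc c ^ 2 = g * ((g⁻¹ * c * g) * (g⁻¹ * c * g)) * g⁻¹ := by rw [pow_two]; group
        _ = 1 := by rw [(hmem c hc).2, mul_one, mul_inv_cancel])
  obtain ⟨a, ha⟩ := IsPGroup.iff_card.mp S.isPGroup'
  have ha2 : 2 ≤ a := by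
    rcases a with _ | _ | a
    · rw [hcardS] at ha; simp at ha; omega
    · rw [hcardS] at ha; simp at ha; omega
    · omega
  letI : Fintype (GaloisField 2 a) := Fintype.ofFinite _
  have hcard : Fintype.card F = Fintype.card (GaloisField 2 a) := by
    rw [hF, ← Nat.card_eq_fintype_card (α := GaloisField 2 a), GaloisField.card 2 a (by omega), ← ha]
  obtain ⟨e2⟩ := Linear.psl_congr (FiniteField.ringEquivOfCardEq hcard) (Fin 2)
  exact ⟨a, ha2, ⟨e.trans e2⟩⟩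

end Cfsg.Agent.FGS75.TICent
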