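import Cfsg.Agent.FGS75.TICent.Basic
import Cfsg.Prelude.Def_Involutions
import Cfsg.Agent.S0183
import Cfsg.Agent.S0215
import Cfsg.Agent.S1225
import Cfsg.Agent.S1473
import Cfsg.Agent.S1477
import Cfsg.Agent.FGS75.FitRank.Main
import Cfsg.Agent.FGS75.SelfNorm.Reverse

/-!
The non-solvable case: the normalizer of a Sylow 2-subgroup is strongly embedded and the centralizer
of an involution is a nilpotent Hall TI-subgroup.
-/

set_option autoImplicit false
set_option maxHeartbeats 1000000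

namespace Cfsg.Agent.FGS75.TICent

open FitRank (El)

variable {G : Type*} [Group G]

/-- The normalizer of `S`. -/
abbrev nS (S : Sylow 2 G) : Subgroup G := Subgroup.normalizer ((S : Subgroup G) : Set G)

/-- The centralizer of `z`. -/
abbrev cz (z : G) : Subgroup G := Subgroup.centralizer ({z} : Set G)

variable [Finite G]

/-- The data of the non-solvable case. -/
structure Dat (S : Sylow 2 G) (z : G) : Prop where
  tic : TIC G
  ns : ¬ Group.IsSolvable G
  zS : z ∈ (S : Subgroup G)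
  z1 : z ≠ 1
  z2 : z * z = 1
  zc : ∀ s ∈ (S : Subgroup G), s * z = z * s

theorem El.of_mem_sylow {p : ℕ} (S : Sylow p G) {s : G} (hs : s ∈ (S : Subgroup G)) : El p s := by
  obtain ⟨i, hi⟩ := S.isPGroup' ⟨s, hs⟩
  exact ⟨i, congrArg Subtype.val hi⟩

theorem center_trivial (hTI : TIC G) (hns : ¬ Group.IsSolvable G) {x : G}
    (hx : x ∈ Subgroup.center G) : x = 1 := by
  by_contra h1
  haveI := isNilpotent_of_center hTI hx h1
  exact hns inferInstance

theorem isSolvable_of_odd (hTI : TIC G) {N : Subgroup G} (hN : Odd (Nat.card N)) :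
    Group.IsSolvable N := by
  refine Cfsg.Agent.S0183.result hN fun g hg => ?_
  haveI := isNilpotent_cent hTI (x := (g : G)) fun e => hg (Subtype.ext e)
  let f : Subgroup.centralizer ({g} : Set N) →* Subgroup.centralizer ({(g : G)} : Set G) :=
    { toFun := fun c => ⟨((c : N) : G), mem_cent.mpr (congrArg Subtype.val (mem_cent.mp c.2))⟩
      map_one' := rfl
      map_mul' := fun _ _ => rfl }
  have hf : Function.Injective f := fun a b e =>
    Subtype.ext (Subtype.ext (congrArg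
      (fun w : Subgroup.centralizer ({(g : G)} : Set G) => (w : G)) e))
  exact isNilpotent_of_ker_le_center f (by rw [(MonoidHom.ker_eq_bot_iff f).mpr hf]; exact bot_le)

theorem sylow_two_ne_bot (hTI : TIC G) (hns : ¬ Group.IsSolvable G) (S : Sylow 2 G) :
    ∃ t ∈ (S : Subgroup G), orderOf t = 2 := by
  haveI : Fact (Nat.Prime 2) := ⟨Nat.prime_two⟩
  have h2 : 2 ∣ Nat.card G := by
    by_contra h2
    have hodd : Odd (Nat.card G) := Nat.odd_iff.mpr (Nat.two_dvd_ne_zero.mp h2)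
    haveI := isSolvable_of_odd hTI (N := ⊤) (by rw [Subgroup.card_top]; exact hodd)
    exact hns (Group.isSolvable_of_surjective (f := (Subgroup.topEquiv : (⊤ : Subgroup G) ≃* G).toMonoidHom)
      Subgroup.topEquiv.surjective)
  have h3 : 2 ∣ Nat.card (S : Subgroup G) := S.dvd_card_of_dvd_card h2
  obtain ⟨⟨t, ht⟩, ht2⟩ := exists_prime_orderOf_dvd_card' 2 h3
  exact ⟨t, ht, by rwa [Subgroup.orderOf_mk] at ht2⟩

/-- `Z*`: a Sylow 2-subgroup has more than one involution. -/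
theorem exists_two_involutions (hTI : TIC G) (hns : ¬ Group.IsSolvable G) (S : Sylow 2 G) {u : G}
    (huS : u ∈ (S : Subgroup G)) (hu : orderOf u = 2) :
    ∃ t ∈ (S : Subgroup G), orderOf t = 2 ∧ t ≠ u := by
  by_contra hc
  push Not at hc
  obtain ⟨N, hNn, hNodd, hN⟩ := Cfsg.Agent.S0215.result S u hu huS fun g hg => hc _ hg (by
    rw [← hu]; exact orderOf_injective (MulAut.conj g).toMonoidHom (MulAut.conj g).injective u)
  haveI := hNn
  haveI hNs := isSolvable_of_odd hTI hNodd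
  have hCN := Cfsg.Agent.S1473.result (isCN hTI) N hNs
  have hu1 : (QuotientGroup.mk' N u) ≠ 1 := by
    intro e
    have huN : u ∈ N := (QuotientGroup.eq_one_iff u).mp e
    have h2 := Subgroup.orderOf_dvd_natCard N huN
    rw [hu] at h2
    exact (Nat.not_even_iff_odd.mpr hNodd) (even_iff_two_dvd.mpr h2)
  have hcen : (Subgroup.centralizer ({QuotientGroup.mk' N u} : Set (G ⧸ N))) = ⊤ := by
    refine eq_top_iff.mpr fun y _ => ?_
    obtain ⟨g, rfl⟩ := QuotientGroup.mk'_surjective N y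
    refine mem_cent.mpr ?_
    have h1 : QuotientGroup.mk' N (u * g * u⁻¹ * g⁻¹) = 1 := (QuotientGroup.eq_one_iff _).mpr (hN g)
    rw [map_mul, map_mul, map_mul, map_inv, map_inv, mul_inv_eq_one, mul_inv_eq_iff_eq_mul] at h1
    exact h1.symm
  haveI : Group.IsNilpotent (G ⧸ N) := by
    have := hCN _ hu1
    rw [hcen] at this
    exact Group.isNilpotent_top.mp this
  exact hns (Group.isSolvable_of_ker_le_range N.subtype (QuotientGroup.mk' N)
    (by rw [QuotientGroup.ker_mk', Subgroup.range_subtype]))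

theorem exists_dat (hTI : TIC G) (hns : ¬ Group.IsSolvable G) :
    ∃ (S : Sylow 2 G) (z : G), Dat S z := by
  haveI : Fact (Nat.Prime 2) := ⟨Nat.prime_two⟩
  obtain ⟨S⟩ := (inferInstance : Nonempty (Sylow 2 G))
  obtain ⟨t, ht, ht2⟩ := sylow_two_ne_bot hTI hns S
  haveI : Nontrivial (S : Subgroup G) := ⟨⟨⟨t, ht⟩, 1, fun e => by
    rw [show t = 1 from congrArg Subtype.val e, orderOf_one] at ht2; omega⟩⟩
  haveI := S.isPGroup'.center_nontrivial
  have h2 : 2 ∣ Nat.card (Subgroup.center (S : Subgroup G)) := by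
    obtain ⟨k, hk⟩ := IsPGroup.iff_card.mp (S.isPGroup'.to_subgroup (Subgroup.center (S : Subgroup G)))
    rcases Nat.eq_zero_or_pos k with rfl | hk0
    · have := Finite.one_lt_card (α := Subgroup.center (S : Subgroup G))
      rw [hk] at this
      omega
    · exact hk ▸ dvd_pow_self 2 hk0.ne'
  obtain ⟨⟨⟨z, hzS⟩, hzc⟩, hz2⟩ := exists_prime_orderOf_dvd_card' 2 h2
  rw [Subgroup.orderOf_mk, Subgroup.orderOf_mk] at hz2
  exact ⟨S, z, hTI, hns, hzS, fun e => by rw [e, orderOf_one] at hz2; omega,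
    by rw [← pow_two, ← hz2, pow_orderOf_eq_one],
    fun s hs => congrArg Subtype.val (Subgroup.mem_center_iff.mp hzc ⟨s, hs⟩)⟩

variable {S : Sylow 2 G} {z : G} (h : Dat S z)
include h

theorem Dat.orderOf_z : orderOf z = 2 := orderOf_eq_prime (by rw [pow_two, h.z2]) h.z1

theorem Dat.el_z : El 2 z := ⟨1, by rw [pow_one, pow_two, h.z2]⟩

theorem Dat.le_cz : (S : Subgroup G) ≤ cz z := fun s hs => mem_cent.mpr (h.zc s hs)

theorem Dat.le_cent_z {K : Subgroup G} (hK : Group.IsNilpotent K)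
    (hSK : (S : Subgroup G) ≤ Subgroup.normalizer (K : Set G)) (hzK : z ∈ K) : K ≤ cz z := by
  haveI : Fact (Nat.Prime 2) := ⟨Nat.prime_two⟩
  refine (FitRank.le_closure_el K).trans ((Subgroup.closure_le _).mpr ?_)
  rintro a ⟨ha, s, hs, has⟩
  refine mem_cent.mpr ?_
  by_cases h2 : s = 2
  · subst h2
    exact h.zc a (el_mem_sylow S hK hSK ha has)
  · exact comm_of_el hK hs Nat.prime_two h2 ha hzK has h.el_z

theorem Dat.mem_of_comm_conj {g : G} (hg : (g * z * g⁻¹) * z = z * (g * z * g⁻¹)) : g ∈ nS S := by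
  haveI : Fact (Nat.Prime 2) := ⟨Nat.prime_two⟩
  refine SelfNorm.mem_normalizer_of_conj fun s hs => ?_
  refine el_mem_sylow S (isNilpotent_cent h.tic (x := g * z * g⁻¹)
    fun e => h.z1 (conj_eq_one_iff.mp e)) ?_ (mem_cent.mpr (conj_comm g (h.zc s hs)))
    ((El.of_mem_sylow S hs).conj g)
  intro w hw
  exact cent_normalizes h.tic h.z1 hg (h.zc w hw)

theorem Dat.ti {g y : G} (hy : y ∈ (S : Subgroup G)) (hy1 : y ≠ 1)
    (hgy : g * y * g⁻¹ ∈ (S : Subgroup G)) : g ∈ nS S := by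
  haveI : Fact (Nat.Prime 2) := ⟨Nat.prime_two⟩
  refine h.mem_of_comm_conj (h.zc _ ?_)
  refine el_mem_sylow S (isNilpotent_cent h.tic (x := g * y * g⁻¹)
    fun e => hy1 (conj_eq_one_iff.mp e)) ?_ (mem_cent.mpr (conj_comm g (h.zc y hy).symm))
    (h.el_z.conj g)
  intro w hw
  exact cent_normalizes h.tic h.z1 (h.zc _ hgy) (h.zc w hw)

theorem Dat.ne_top : nS S ≠ ⊤ := by
  intro htop
  haveI : Fact (Nat.Prime 2) := ⟨Nat.prime_two⟩
  haveI hn : (S : Subgroup G).Normal := Subgroup.normalizer_eq_top_iff.mp htop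
  haveI : Group.IsNilpotent (S : Subgroup G) := S.isPGroup'.isNilpotent
  have hCN := Cfsg.Agent.S1473.result (isCN h.tic) (S : Subgroup G) inferInstance
  haveI : Group.IsSolvable (G ⧸ (S : Subgroup G)) :=
    Cfsg.Agent.S0183.result (Nat.odd_iff.mpr (Nat.two_dvd_ne_zero.mp S.not_dvd_index)) hCN
  exact h.ns (Group.isSolvable_of_ker_le_range (S : Subgroup G).subtype
    (QuotientGroup.mk' (S : Subgroup G)) (by rw [QuotientGroup.ker_mk', Subgroup.range_subtype]))

theorem Dat.two_mem {t : G} (ht : t * t = 1) (htM : t ∈ nS S) : t ∈ (S : Subgroup G) :=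
  SelfNorm.mem_sylow_of_mem_normalizer (k := 1) (by rw [pow_one, pow_two, ht]) htM

theorem Dat.stronglyEmbedded : Cfsg.IsStronglyEmbedded (nS S) := by
  haveI : Fact (Nat.Prime 2) := ⟨Nat.prime_two⟩
  refine ⟨h.ne_top, even_iff_two_dvd.mpr (h.orderOf_z ▸ Subgroup.orderOf_dvd_natCard (nS S)
    (Subgroup.le_normalizer h.zS)), fun g hg => ?_⟩
  rw [← Nat.not_even_iff_odd]
  intro heven
  obtain ⟨⟨t, htM, ⟨t', ht'M, ht'⟩⟩, ht⟩ := exists_prime_orderOf_dvd_card' 2 (even_iff_two_dvd.mp heven)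
  replace ht : orderOf t = 2 := (Subgroup.orderOf_coe _).trans ht
  have ht2 : t * t = 1 := by rw [← pow_two, ← ht, pow_orderOf_eq_one]
  have e : g * t' * g⁻¹ = t := ht'
  have ht'2 : t' * t' = 1 := by
    apply (MulAut.conj g).injective
    rw [map_mul, map_one]
    show g * t' * g⁻¹ * (g * t' * g⁻¹) = 1
    rw [e, ht2]
  refine hg (h.ti (h.two_mem ht'2 ht'M) ?_ (e ▸ h.two_mem ht2 htM))
  intro e'
  rw [e', mul_one, mul_inv_cancel] at e
  rw [← e, orderOf_one] at ht
  omega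

theorem Dat.conj_trans {s t : G} (hs : orderOf s = 2) (hsS : s ∈ (S : Subgroup G))
    (ht : orderOf t = 2) (htS : t ∈ (S : Subgroup G)) {u : G} (hu : orderOf u = 2)
    (huM : u ∉ nS S) :
    ∃ d ∈ (nS S ⊓ (nS S).map (MulAut.conj u).toMonoidHom), d * s * d⁻¹ = t :=
  (Cfsg.Agent.S1225.result (nS S) h.stronglyEmbedded u hu huM s t hs
    (Subgroup.le_normalizer hsS) ht (Subgroup.le_normalizer htS)).1

theorem Dat.exists_outer : ∃ u : G, orderOf u = 2 ∧ u ∉ nS S := by
  obtain ⟨g, hg⟩ : ∃ g, g ∉ nS S := by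
    by_contra hc
    push Not at hc
    exact h.ne_top (eq_top_iff.mpr fun g _ => hc g)
  refine ⟨g * z * g⁻¹, ?_, fun hM => hg (h.ti h.zS h.z1 (h.two_mem ?_ hM))⟩
  · rw [← h.orderOf_z]
    exact orderOf_injective (MulAut.conj g).toMonoidHom (MulAut.conj g).injective z
  · rw [conj_mul, h.z2, mul_one, mul_inv_cancel]

theorem Dat.involutions_conj {a b : G} (ha : orderOf a = 2) (hb : orderOf b = 2) : IsConj a b := by
  obtain ⟨u, hu, huM⟩ := h.exists_outer
  exact (Cfsg.Agent.S1225.result (nS S) h.stronglyEmbedded u hu huM z z h.orderOf_z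
    (Subgroup.le_normalizer h.zS) h.orderOf_z (Subgroup.le_normalizer h.zS)).2 a b ha hb

/-- Every involution of `S` is central in `S`. -/
theorem Dat.of_involution {t : G} (ht : t * t = 1) (ht1 : t ≠ 1) (htS : t ∈ (S : Subgroup G)) :
    Dat S t := by
  refine ⟨h.tic, h.ns, htS, ht1, ht, fun s hs => ?_⟩
  obtain ⟨u, hu, huM⟩ := h.exists_outer
  obtain ⟨d, hd, rfl⟩ := h.conj_trans h.orderOf_z h.zS
    (orderOf_eq_prime (by rw [pow_two, ht]) ht1) htS hu huM
  have h1 := conj_comm d (h.zc _ ((Subgroup.mem_normalizer_iff''.mp hd.1 s).mp hs))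
  rw [show d * (d⁻¹ * s * d) * d⁻¹ = s by group] at h1
  exact h1

theorem Dat.cz_le {t : G} (ht : t * t = 1) (ht1 : t ≠ 1) (htS : t ∈ (S : Subgroup G)) :
    cz t ≤ cz z := by
  refine h.le_cent_z (isNilpotent_cent h.tic ht1) (fun s hs => ?_)
    (mem_cent.mpr (h.zc t htS).symm)
  exact cent_normalizes h.tic h.z1 (h.zc t htS) (h.zc s hs)

theorem Dat.cz_eq {t : G} (ht : t * t = 1) (ht1 : t ≠ 1) (htS : t ∈ (S : Subgroup G)) :
    cz t = cz z :=
  le_antisymm (h.cz_le ht ht1 htS) ((h.of_involution ht ht1 htS).cz_le h.z2 h.z1 h.zS)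

theorem Dat.cent_le {y : G} (hy : y * z = z * y) (hy1 : y ≠ 1) : cz y ≤ cz z := by
  refine h.le_cent_z (isNilpotent_cent h.tic hy1) (fun s hs => ?_) (mem_cent.mpr hy.symm)
  exact cent_normalizes h.tic h.z1 hy (h.zc s hs)

theorem Dat.normalizes {m : G} (hm : m ∈ nS S) {c : G} (hc : c * z = z * c) :
    (m * c * m⁻¹) * z = z * (m * c * m⁻¹) := by
  have htS : m * z * m⁻¹ ∈ (S : Subgroup G) := (Subgroup.mem_normalizer_iff.mp hm z).mp h.zS
  have h1 : m * c * m⁻¹ ∈ cz (m * z * m⁻¹) := mem_cent.mpr (conj_comm m hc)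
  rw [h.cz_eq (by rw [conj_mul, h.z2, mul_one, mul_inv_cancel])
    (fun e => h.z1 (conj_eq_one_iff.mp e)) htS] at h1
  exact mem_cent.mp h1

theorem Dat.ti_cz {g y : G} (hy : y * z = z * y) (hy1 : y ≠ 1)
    (hgy : (g * y * g⁻¹) * z = z * (g * y * g⁻¹)) : g ∈ nS S := by
  refine h.mem_of_comm_conj (mem_cent.mp (h.cent_le hgy (fun e => hy1 (conj_eq_one_iff.mp e)) ?_))
  exact mem_cent.mpr (conj_comm g hy.symm)

theorem Dat.cz_le_nS : cz z ≤ nS S := fun c hc => h.ti h.zS h.z1 (by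
  rw [conj_fix (mem_cent.mp hc)]; exact h.zS)

theorem Dat.coprime_index : (Nat.card (cz z)).Coprime (cz z).index := by
  refine (Cfsg.Agent.S1477.result (isCN h.tic) (cz z) (isNilpotent_cent h.tic h.z1)
    fun L hL hle => le_antisymm ?_ hle).1
  exact h.le_cent_z hL (h.le_cz.trans (hle.trans Subgroup.le_normalizer))
    (hle (mem_cent.mpr rfl))

/-- `N(S)` meets no other conjugate of `C(z)`. -/
theorem Dat.inter_eq_one {g x : G} (hg : g ∉ nS S) (hx : x ∈ nS S)
    (hxc : x * (g * z * g⁻¹) = (g * z * g⁻¹) * x) : x = 1 := by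
  by_contra hx1
  have ho : orderOf x ≠ 1 := fun e => hx1 (orderOf_eq_one_iff.mp e)
  obtain ⟨p, hp, hpd⟩ := Nat.exists_prime_and_dvd ho
  haveI : Fact p.Prime := ⟨hp⟩
  set y := x ^ (orderOf x / p) with hy
  have hyo : orderOf y = p := orderOf_pow_orderOf_div (orderOf_pos x).ne' hpd
  have hyc : y * (g * z * g⁻¹) = (g * z * g⁻¹) * y :=
    (Commute.pow_left (show Commute x (g * z * g⁻¹) from hxc) _).eq
  have hyM : y ∈ nS S := pow_mem hx _
  have hy1 : y ≠ 1 := fun e => hp.one_lt.ne (by rw [← hyo, e, orderOf_one])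
  have hy' : (g⁻¹ * y * g) * z = z * (g⁻¹ * y * g) := by
    have e := conj_comm g⁻¹ hyc
    rwa [show g⁻¹ * (g * z * g⁻¹) * g⁻¹⁻¹ = z by group,
      show g⁻¹ * y * g⁻¹⁻¹ = g⁻¹ * y * g by group] at e
  have hpH : p ∣ Nat.card (cz z) := by
    rw [← hyo, ← show orderOf (g⁻¹ * y * g) = orderOf y by
      simpa using orderOf_injective (MulAut.conj g⁻¹).toMonoidHom (MulAut.conj g⁻¹).injective y]
    exact Subgroup.orderOf_dvd_natCard _ (mem_cent.mpr hy')
  have hnor : ((cz z).subgroupOf (nS S)).Normal := by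
    refine (Subgroup.normal_subgroupOf_iff_le_normalizer h.cz_le_nS).mpr fun m hm => ?_
    exact SelfNorm.mem_normalizer_of_conj fun c hc => mem_cent.mpr (h.normalizes hm (mem_cent.mp hc))
  haveI := hnor
  have h1 : (⟨y, hyM⟩ : nS S) ^ ((cz z).subgroupOf (nS S)).index ∈ (cz z).subgroupOf (nS S) :=
    Subgroup.pow_index_mem _ _
  have hd : ((cz z).subgroupOf (nS S)).index ∣ (cz z).index :=
    ⟨(nS S).index, (Subgroup.relIndex_mul_index h.cz_le_nS).symm⟩
  have hcop : ((cz z).subgroupOf (nS S)).index.Coprime p :=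
    ((h.coprime_index.coprime_dvd_right hd).coprime_dvd_left hpH).symm
  have hyH : y ∈ cz z := by
    obtain ⟨k, hk⟩ := exists_pow_eq_self_of_coprime (x := y) (n := ((cz z).subgroupOf (nS S)).index)
      (by rw [hyo]; exact hcop)
    rw [← hk]
    exact pow_mem h1 k
  refine hg (h.ti_cz hy' (fun e => hy1 ?_) ?_)
  · calc y = g * (g⁻¹ * y * g) * g⁻¹ := by group
      _ = 1 := by rw [e, mul_one, mul_inv_cancel]
  · rw [show g * (g⁻¹ * y * g) * g⁻¹ = y by group]
    exact mem_cent.mp hyH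

end Cfsg.Agent.FGS75.TICent
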